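import Mathlib
import Cfsg.Agent.S2904

set_option autoImplicit false

/-!
# The primitive part of `q ^ n - 1` (helper35)
-/

namespace Cfsg.Agent.Num.ZsigPart

open Polynomial Cfsg.Agent.S2904

/-- value of the cyclotomic polynomial -/
noncomputable def E (n q : ℕ) : ℤ := (cyclotomic n ℤ).eval (q : ℤ)

/-- a primitive divisor at least `3 n + 1` -/
def Good (q n : ℕ) : Prop :=
  ∃ m : ℕ, m ∣ q ^ n - 1 ∧ (∀ i : ℕ, 1 ≤ i → i < n → Nat.Coprime m (q ^ i - 1)) ∧ 3 * n + 1 ≤ m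

theorem E_mul_dvd {p n : ℕ} (hp : p.Prime) (h : p ∣ n) (q : ℕ) : E (n * p) q = E n (q ^ p) := by
  have h1 := cyclotomic_expand_eq_cyclotomic hp h ℤ
  unfold E
  rw [← h1, expand_eval]
  push_cast
  rfl

theorem E_mul_ndvd {p n : ℕ} (hp : p.Prime) (h : ¬ p ∣ n) (q : ℕ) : E (n * p) q * E n q = E n (q ^ p) := by
  have h1 := cyclotomic_expand_eq_cyclotomic_mul hp h ℤ
  unfold E
  rw [← eval_mul, ← h1, expand_eval]
  push_cast
  rfl

theorem E_pow {p m : ℕ} (hp : p.Prime) (k : ℕ) (q : ℕ) : E (m * p ^ (k + 1)) q = E (m * p) (q ^ p ^ k) := by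
  induction k generalizing q with
  | zero => simp
  | succ k ih =>
    have e : m * p ^ (k + 1 + 1) = (m * p ^ (k + 1)) * p := by ring
    rw [e, E_mul_dvd hp ((dvd_pow_self p (Nat.succ_ne_zero k)).mul_left m), ih, ← pow_mul, ← pow_succ']

theorem E_dvd (n q : ℕ) : E n q ∣ (q : ℤ) ^ n - 1 := by
  have h := cyclotomic.dvd_X_pow_sub_one n ℤ
  have h' := eval_dvd (x := (q : ℤ)) h
  unfold E
  simpa using h'

theorem E_le {m x : ℕ} (hx : 1 < x) : E m x ≤ ((x : ℤ) + 1) ^ m.totient := by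
  have := eval_le x m hx
  exact_mod_cast this

theorem le_E {m x : ℕ} (hm : 0 < m) (hx : 1 < x) : ((x : ℤ) - 1) ^ m.totient ≤ E m x := by
  rcases Nat.lt_or_ge 1 m with h | h
  · exact (lt_eval x m h hx).le
  · obtain rfl : m = 1 := by omega
    simp [E]

theorem E_pos {m x : ℕ} (hm : 0 < m) (hx : 1 < x) : 0 < E m x := by
  refine lt_of_lt_of_le ?_ (le_E hm hx)
  have : (0 : ℤ) < (x : ℤ) - 1 := by omega
  positivity

theorem bound {p m x : ℕ} (hp : p.Prime) (hm : 0 < m) (hpm : ¬ p ∣ m) (hx : 1 < x) :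
    ((x : ℤ) ^ p - 1) ^ m.totient ≤ E (m * p) x * ((x : ℤ) + 1) ^ m.totient := by
  have hxp : 1 < x ^ p := one_lt_pow₀ hx hp.ne_zero
  have h1 := le_E hm hxp
  rw [← E_mul_ndvd hp hpm] at h1
  push_cast at h1
  refine h1.trans ?_
  have h2 := E_le (m := m) hx
  have h3 := E_pos (m := m * p) (Nat.mul_pos hm hp.pos) hx
  exact mul_le_mul_of_nonneg_left h2 h3.le

theorem bound' {p m x B : ℕ} (hp : p.Prime) (hm : 0 < m) (hpm : ¬ p ∣ m) (hx : 1 < x)
    (hB : (B : ℤ) * ((x : ℤ) + 1) ≤ (x : ℤ) ^ p - 1) : (B : ℤ) ^ m.totient ≤ E (m * p) x := by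
  have h1 := bound hp hm hpm hx
  have h2 : ((B : ℤ) * ((x : ℤ) + 1)) ^ m.totient ≤ ((x : ℤ) ^ p - 1) ^ m.totient :=
    pow_le_pow_left₀ (by positivity) hB _
  rw [mul_pow] at h2
  have h3 := h2.trans h1
  exact le_of_mul_le_mul_right h3 (by positivity)

theorem prime_cases {q n r : ℕ} (hn : 0 < n) (hr : r.Prime) (hrE : (r : ℤ) ∣ E n q) :
    ∃ e m, ¬ r ∣ m ∧ n = r ^ e * m ∧ orderOf (q : ZMod r) = m := by
  have := Fact.mk hr
  obtain ⟨e, m, hm, hnm⟩ := Nat.exists_eq_pow_mul_and_not_dvd hn.ne' r hr.one_lt.ne'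
  refine ⟨e, m, hm, hnm, ?_⟩
  refine orderOf_of_dvd q m e r hm ?_
  rw [← hnm]; exact hrE

theorem ne_zero_of_dvd {q n r : ℕ} (hn : 0 < n) (hr : r.Prime) (hrE : (r : ℤ) ∣ E n q) :
    (q : ZMod r) ≠ 0 := by
  have := Fact.mk hr
  have h1 : (r : ℤ) ∣ (q : ℤ) ^ n - 1 := hrE.trans (E_dvd n q)
  intro h0
  rw [← ZMod.intCast_zmod_eq_zero_iff_dvd] at h1
  push_cast at h1
  rw [h0, zero_pow hn.ne', zero_sub, neg_eq_zero] at h1
  exact one_ne_zero h1

/-- The criterion. `p` is the largest prime divisor of `n`. -/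
theorem good_of {q n p k m : ℕ} (hq : 1 < q) (hn : 2 < n) (hp : p.Prime) (hk : k ≠ 0) (hpm : ¬ p ∣ m)
    (hnm : n = p ^ k * m) (hmax : ∀ s : ℕ, s.Prime → s ∣ n → s ≤ p) (h1 : 3 * n + 1 ≤ E n q)
    (h2 : orderOf (q : ZMod p) = m → (3 * n + 1) * p ≤ E n q) : Good q n := by
  have hn0 : 0 < n := by omega
  obtain ⟨F, hF⟩ : ∃ F : ℕ, E n q = F := ⟨(E n q).natAbs, by have := E_pos hn0 hq; omega⟩
  have hFd : F ∣ q ^ n - 1 := by
    have h : (F : ℤ) ∣ (q : ℤ) ^ n - 1 := by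
      rw [← hF]; exact E_dvd n q
    have h0 : 1 ≤ q ^ n := Nat.one_le_pow _ _ (by omega)
    zify [h0]
    exact h
  -- primes not dividing `n` are primitive
  have hprim : ∀ r : ℕ, r.Prime → r ∣ F → ¬ r ∣ n → ∀ i, 1 ≤ i → i < n → ¬ r ∣ q ^ i - 1 := by
    intro r hr hrF hrn i hi hin hri
    have hrE : (r : ℤ) ∣ E n q := by rw [hF]; exact_mod_cast hrF
    obtain ⟨e, m', hm', hnm', hord⟩ := prime_cases hn0 hr hrE
    have he : e = 0 := by
      by_contra he
      exact hrn (by rw [hnm']; exact (dvd_pow_self r he).mul_right m')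
    subst he
    rw [pow_zero, one_mul] at hnm'
    rw [dvd_pow_sub_one_iff q i r hq] at hri
    have := Nat.le_of_dvd (by omega) (orderOf_dvd_of_pow_eq_one hri)
    omega
  -- a prime dividing `F` and `n` is `p`
  have huniq : ∀ r : ℕ, r.Prime → r ∣ F → r ∣ n → r = p ∧ orderOf (q : ZMod p) = m := by
    intro r hr hrF hrn
    have := Fact.mk hr
    have hrE : (r : ℤ) ∣ E n q := by rw [hF]; exact_mod_cast hrF
    obtain ⟨e, m', hm', hnm', hord⟩ := prime_cases hn0 hr hrE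
    have h3 : m' ∣ r - 1 := by
      rw [← hord]
      exact ZMod.orderOf_dvd_card_sub_one (ne_zero_of_dvd hn0 hr hrE)
    have hrp : r = p := by
      refine le_antisymm (hmax r hr hrn) ?_
      have h4 : p ∣ r ^ e * m' := by
        rw [← hnm', hnm]; exact (dvd_pow_self p hk).mul_right m
      rcases (Nat.Prime.dvd_mul hp).mp h4 with h | h
      · exact ((Nat.prime_dvd_prime_iff_eq hp hr).mp (hp.dvd_of_dvd_pow h)).le
      · have := Nat.le_of_dvd (by have := hr.two_le; omega) (h.trans h3)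
        omega
    refine ⟨hrp, ?_⟩
    subst hrp
    rw [hord]
    -- `m' = m`
    have h5 : r ^ e * m' = r ^ k * m := by rw [← hnm', hnm]
    have h6 : m' ∣ m := by
      have : m' ∣ r ^ k * m := by rw [← h5]; exact dvd_mul_left _ _
      exact Nat.Coprime.dvd_of_dvd_mul_left (Nat.Coprime.pow_right _ ((Nat.Prime.coprime_iff_not_dvd hr).2 hm').symm) this
    have h7 : m ∣ m' := by
      have : m ∣ r ^ e * m' := by rw [h5]; exact dvd_mul_left _ _
      exact Nat.Coprime.dvd_of_dvd_mul_left (Nat.Coprime.pow_right _ ((Nat.Prime.coprime_iff_not_dvd hr).2 hpm).symm) this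
    exact Nat.dvd_antisymm h6 h7
  by_cases hpF : p ∣ F
  · have hpn : p ∣ n := by rw [hnm]; exact (dvd_pow_self p hk).mul_right m
    obtain ⟨-, hord⟩ := huniq p hp hpF hpn
    have h3 := h2 hord
    obtain ⟨m₁, rfl⟩ := hpF
    have hpE : (p : ℤ) ∣ (cyclotomic n ℤ).eval (q : ℤ) := by
      change (p : ℤ) ∣ E n q
      rw [hF]; push_cast; exact dvd_mul_right _ _
    have hsq := key q n p k m hp hq hk hpm hnm (by omega) hpE (fun _ h => by omega)
    have hpm₁ : ¬ p ∣ m₁ := by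
      rintro ⟨c, rfl⟩
      apply hsq
      change (p : ℤ) ^ 2 ∣ E n q
      rw [hF]; push_cast
      exact ⟨c, by ring⟩
    refine ⟨m₁, (dvd_mul_left m₁ p).trans hFd, fun i hi hin => ?_, ?_⟩
    · refine Nat.Coprime.symm (Nat.coprime_of_dvd fun r hr hr1 hr2 => ?_)
      refine hprim r hr (hr2.mul_left p) (fun hrn => ?_) i hi hin hr1
      have := (huniq r hr (hr2.mul_left p) hrn).1
      subst this
      exact hpm₁ hr2
    · rw [hF] at h3
      have h4 : (3 * n + 1) * p ≤ p * m₁ := by exact_mod_cast h3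
      rw [mul_comm p m₁] at h4
      exact Nat.le_of_mul_le_mul_right h4 hp.pos
  · refine ⟨F, hFd, fun i hi hin => ?_, by rw [hF] at h1; exact_mod_cast h1⟩
    refine Nat.Coprime.symm (Nat.coprime_of_dvd fun r hr hr1 hr2 => ?_)
    refine hprim r hr hr2 (fun hrn => ?_) i hi hin hr1
    have := (huniq r hr hr2 hrn).1
    subst this
    exact hpF hr2

end Cfsg.Agent.Num.ZsigPart
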