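import Cfsg.Agent.Num.ZsigPart

set_option autoImplicit false

/-!
# The primitive part of `q ^ n - 1`, lower bounds (helper35)
-/

namespace Cfsg.Agent.Num.ZsigPart

open Polynomial Cfsg.Agent.S2904

theorem lt_two_pow' (t : ℕ) : t + 1 ≤ 2 ^ t := Nat.lt_two_pow_self

/-- `t ≤ x - 1` for `x = q ^ t` -/
theorem succ_le_pow {q t : ℕ} (hq : 2 ≤ q) : t + 1 ≤ q ^ t :=
  (lt_two_pow' t).trans (Nat.pow_le_pow_left hq t)

theorem totient_aux (m : ℕ) : (Odd m → m ≤ m.totient ^ 2) ∧ m ≤ 2 * m.totient ^ 2 := by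
  induction m using Nat.recOnPosPrimePosCoprime with
  | zero => exact ⟨fun h => by simp at h, by simp⟩
  | one => exact ⟨fun _ => by simp, by simp⟩
  | prime_pow p n hp hn =>
    obtain ⟨k, rfl⟩ := Nat.exists_eq_succ_of_ne_zero hn.ne'
    rw [Nat.succ_eq_add_one, Nat.totient_prime_pow_succ hp]
    rcases Nat.lt_or_ge p 3 with h | h
    · obtain rfl : p = 2 := by have := hp.two_le; omega
      refine ⟨fun h => ?_, ?_⟩
      · exfalso
        rw [pow_succ] at h
        exact (Nat.not_odd_iff_even.2 (even_two.mul_left _)) h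
      · have h1 : 1 ≤ 2 ^ k := Nat.one_le_two_pow
        rw [pow_succ]
        nlinarith
    · have h1 : p ^ (k + 1) ≤ (p ^ k * (p - 1)) ^ 2 := by
        have h2 : 1 ≤ p ^ k := Nat.one_le_pow _ _ hp.pos
        have h3 : p ≤ (p - 1) ^ 2 := by
          obtain ⟨r, rfl⟩ : ∃ r, p = r + 1 := ⟨p - 1, by omega⟩
          simp only [Nat.add_sub_cancel]
          nlinarith
        rw [mul_pow, pow_succ]
        calc p ^ k * p ≤ p ^ k * (p - 1) ^ 2 := Nat.mul_le_mul_left _ h3
          _ ≤ (p ^ k) ^ 2 * (p - 1) ^ 2 := by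
            apply Nat.mul_le_mul_right
            nlinarith
      exact ⟨fun _ => h1, by omega⟩
  | coprime a b ha hb hab iha ihb =>
    rw [Nat.totient_mul hab, mul_pow]
    constructor
    · intro h
      rw [Nat.odd_mul] at h
      exact Nat.mul_le_mul (iha.1 h.1) (ihb.1 h.2)
    · have h1 : Odd a ∨ Odd b := by
        by_contra hcon
        push Not at hcon
        simp only [Nat.not_odd_iff_even] at hcon
        have := Nat.dvd_gcd hcon.1.two_dvd hcon.2.two_dvd
        rw [hab] at this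
        omega
      rcases h1 with h1 | h1
      · calc a * b ≤ a.totient ^ 2 * (2 * b.totient ^ 2) := Nat.mul_le_mul (iha.1 h1) ihb.2
          _ = 2 * (a.totient ^ 2 * b.totient ^ 2) := by ring
      · calc a * b ≤ (2 * a.totient ^ 2) * b.totient ^ 2 := Nat.mul_le_mul iha.2 (ihb.1 h1)
          _ = 2 * (a.totient ^ 2 * b.totient ^ 2) := by ring

theorem le_totient_sq (m : ℕ) : m ≤ 2 * m.totient ^ 2 := (totient_aux m).2

theorem L1 {x : ℕ} (hx : 2 ≤ x) (p : ℕ) (hp : 7 ≤ p) : (6 * p : ℤ) * ((x : ℤ) ^ 2 - 1) ≤ (x : ℤ) ^ p - 1 := by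
  have hx' : (2 : ℤ) ≤ x := by exact_mod_cast hx
  induction p, hp using Nat.le_induction with
  | base =>
    rcases Nat.lt_or_ge x 3 with h | h
    · obtain rfl : x = 2 := by omega
      norm_num
    · have hx3 : (3 : ℤ) ≤ x := by exact_mod_cast h
      have h5 : (3 : ℤ) ^ 5 ≤ (x : ℤ) ^ 5 := pow_le_pow_left₀ (by norm_num) hx3 5
      have h2 : (0 : ℤ) ≤ (x : ℤ) ^ 2 := by positivity
      have e : (x : ℤ) ^ 7 = (x : ℤ) ^ 5 * (x : ℤ) ^ 2 := by ring
      rw [e]
      push_cast
      nlinarith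
  | succ p hp ih =>
    have h1 : (x : ℤ) ^ (p + 1) = (x : ℤ) ^ p * x := by ring
    rw [h1]
    have h2 : (4 : ℤ) ≤ (x : ℤ) ^ 2 := by nlinarith
    have h3 : (1 : ℤ) ≤ (x : ℤ) ^ p := one_le_pow₀ (by linarith)
    push_cast at ih ⊢
    have hp' : (7 : ℤ) ≤ p := by exact_mod_cast hp
    have h4 : (x : ℤ) ^ p * 2 ≤ (x : ℤ) ^ p * x := mul_le_mul_of_nonneg_left hx' (by linarith)
    nlinarith

theorem L2 {x : ℕ} (hx : 6 ≤ x) (p : ℕ) (hp : 7 ≤ p) : (7 * p ^ 2 : ℤ) * ((x : ℤ) ^ 2 - 1) ≤ (x : ℤ) ^ p - 1 := by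
  have hx' : (6 : ℤ) ≤ x := by exact_mod_cast hx
  induction p, hp using Nat.le_induction with
  | base =>
    have h5 : (6 : ℤ) ^ 5 ≤ (x : ℤ) ^ 5 := pow_le_pow_left₀ (by norm_num) hx' 5
    have h2 : (0 : ℤ) ≤ (x : ℤ) ^ 2 := by positivity
    have e : (x : ℤ) ^ 7 = (x : ℤ) ^ 5 * (x : ℤ) ^ 2 := by ring
    rw [e]
    push_cast
    nlinarith
  | succ p hp ih =>
    have h1 : (x : ℤ) ^ (p + 1) = (x : ℤ) ^ p * x := by ring
    rw [h1]
    have h2 : (36 : ℤ) ≤ (x : ℤ) ^ 2 := by nlinarith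
    have h3 : (1 : ℤ) ≤ (x : ℤ) ^ p := one_le_pow₀ (by linarith)
    push_cast at ih ⊢
    have hp' : (7 : ℤ) ≤ p := by exact_mod_cast hp
    have h4 : (x : ℤ) ^ p * 6 ≤ (x : ℤ) ^ p * x := mul_le_mul_of_nonneg_left hx' (by linarith)
    have h5 : ((p : ℤ) + 1) ^ 2 ≤ 2 * (p : ℤ) ^ 2 := by nlinarith
    have h6 : (7 * ((p : ℤ) + 1) ^ 2) * ((x : ℤ) ^ 2 - 1) ≤ (7 * (2 * (p : ℤ) ^ 2)) * ((x : ℤ) ^ 2 - 1) := by
      apply mul_le_mul_of_nonneg_right _ (by linarith)
      linarith
    linarith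

theorem six_pow (f : ℕ) (hf : 2 ≤ f) : 8 * f ^ 2 ≤ 6 ^ f := by
  induction f, hf using Nat.le_induction with
  | base => norm_num
  | succ f hf ih => rw [pow_succ 6 f]; nlinarith

theorem ten_pow (f : ℕ) (hf : 4 ≤ f) : 160 * f ^ 2 ≤ 10 ^ f := by
  induction f, hf using Nat.le_induction with
  | base => norm_num
  | succ f hf ih => rw [pow_succ 10 f]; nlinarith

/-- the order hypothesis forces `p ∣ q ^ m - 1` -/
theorem dvd_of_order {q p m : ℕ} (hq : 1 < q) (h : orderOf (q : ZMod p) = m) : p ∣ q ^ m - 1 := by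
  rw [dvd_pow_sub_one_iff q m p hq, ← h, pow_orderOf_eq_one]

theorem case7 {q p k m : ℕ} (hq : 2 ≤ q) (hp : p.Prime) (hp7 : 7 ≤ p) (hm : 0 < m) (hpm : ¬ p ∣ m) :
    (3 * ((p ^ (k + 1) * m : ℕ) : ℤ) + 1 ≤ E (p ^ (k + 1) * m) q) ∧
      (orderOf (q : ZMod p) = m → (3 * ((p ^ (k + 1) * m : ℕ) : ℤ) + 1) * p ≤ E (p ^ (k + 1) * m) q) := by
  rw [mul_comm (p ^ (k + 1)) m, E_pow hp k q]
  set t := p ^ k with ht
  set x := q ^ t with hx
  have ht1 : 1 ≤ t := Nat.one_le_pow _ _ hp.pos
  have htx : t + 1 ≤ x := succ_le_pow hq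
  have hx2 : 2 ≤ x := by omega
  have hP : p ^ (k + 1) = p * t := by rw [pow_succ, mul_comm]
  have hp' : (7 : ℤ) ≤ p := by exact_mod_cast hp7
  have ht1' : (1 : ℤ) ≤ t := by exact_mod_cast ht1
  have htx' : (t : ℤ) + 1 ≤ x := by exact_mod_cast htx
  have hB : ((6 * p * t : ℕ) : ℤ) * ((x : ℤ) + 1) ≤ (x : ℤ) ^ p - 1 := by
    refine le_trans ?_ (L1 hx2 p hp7)
    push_cast
    have : (t : ℤ) * (x + 1) ≤ (x - 1) * (x + 1) := mul_le_mul_of_nonneg_right (by linarith) (by linarith)
    have h6 : (0 : ℤ) ≤ 6 * p := by linarith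
    have := mul_le_mul_of_nonneg_left this h6
    nlinarith
  have hmain := bound' hp hm hpm (by omega : 1 < x) hB
  rcases Nat.lt_or_ge m 3 with hm3 | hm3
  · have hφ : m.totient = 1 := by interval_cases m <;> rfl
    rw [hφ, pow_one] at hmain
    constructor
    · rcases Nat.lt_or_ge m 2 with h | h
      · obtain rfl : m = 1 := by omega
        rw [hP]
        push_cast at hmain ⊢
        nlinarith
      · obtain rfl : m = 2 := by omega
        have h1 := E_mul_ndvd hp hpm x
        have h2 : ∀ y : ℕ, E 2 y = (y : ℤ) + 1 := by intro y; simp [E]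
        rw [h2, h2] at h1
        push_cast at h1
        rw [hP]
        push_cast at hB ⊢
        by_contra hcon
        push Not at hcon
        have h3 : E (2 * p) x ≤ 6 * p * t := by linarith
        have h4 : E (2 * p) x * ((x : ℤ) + 1) ≤ 6 * p * t * ((x : ℤ) + 1) :=
          mul_le_mul_of_nonneg_right h3 (by linarith)
        linarith
    · intro hord
      have h1 := dvd_of_order (by omega) hord
      have h2 : p ∣ q ^ 2 - 1 := by
        rcases Nat.lt_or_ge m 2 with h | h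
        · obtain rfl : m = 1 := by omega
          refine h1.trans ?_
          rw [pow_one]
          exact ⟨q + 1, by rw [mul_comm, ← Nat.sq_sub_sq, one_pow]⟩
        · obtain rfl : m = 2 := by omega
          exact h1
      have hq6 : 6 ≤ q := by
        by_contra hcon
        have h3 := Nat.le_of_dvd (by
          have : 2 ^ 2 ≤ q ^ 2 := Nat.pow_le_pow_left hq 2
          omega) h2
        have hq5 : q ≤ 5 := by omega
        interval_cases q
        · norm_num at h3; omega
        · norm_num at h3 h2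
          interval_cases p <;> first | omega | (revert hp; norm_num)
        · norm_num at h3 h2
          interval_cases p <;> first | omega | (revert hp; norm_num)
        · norm_num at h3 h2
          interval_cases p <;> first | omega | (revert hp; norm_num)
      have hx6 : 6 ≤ x := hq6.trans (by
        have := Nat.pow_le_pow_right (by omega : 0 < q) ht1
        rwa [pow_one] at this)
      have hB2 : (((3 * (m * p ^ (k + 1)) + 1) * p : ℕ) : ℤ) * ((x : ℤ) + 1) ≤ (x : ℤ) ^ p - 1 := by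
        refine le_trans ?_ (L2 hx6 p hp7)
        rw [hP]
        have h3 : (((3 * (m * (p * t)) + 1) * p : ℕ) : ℤ) ≤ 7 * p ^ 2 * t := by
          have : (3 * (m * (p * t)) + 1) * p ≤ 7 * p ^ 2 * t := by
            have hm2 : m ≤ 2 := by omega
            have h4 : 3 * (m * (p * t)) ≤ 6 * (p * t) := by nlinarith [Nat.mul_le_mul_right (p * t) hm2]
            have h5 : 1 ≤ p * t := Nat.mul_pos hp.pos ht1
            calc (3 * (m * (p * t)) + 1) * p ≤ (7 * (p * t)) * p := Nat.mul_le_mul_right p (by omega)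
              _ = 7 * p ^ 2 * t := by ring
          exact_mod_cast this
        have h4 : (t : ℤ) * (x + 1) ≤ (x - 1) * (x + 1) := mul_le_mul_of_nonneg_right (by linarith) (by linarith)
        have h5 := mul_le_mul_of_nonneg_right h3 (by linarith : (0 : ℤ) ≤ (x : ℤ) + 1)
        have h6 : (0 : ℤ) ≤ 7 * p ^ 2 := by positivity
        have h7 := mul_le_mul_of_nonneg_left h4 h6
        nlinarith
      have := bound' hp hm hpm (by omega : 1 < x) hB2
      rw [hφ, pow_one] at this
      push_cast at this ⊢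
      exact this
  · have hφ2 : 2 ≤ m.totient := by
      by_contra hcon
      have h1 := le_totient_sq m
      have h2 : m.totient ≤ 1 := by omega
      have h3 : m.totient ^ 2 ≤ 1 := by
        calc m.totient ^ 2 ≤ 1 ^ 2 := Nat.pow_le_pow_left h2 2
          _ = 1 := by norm_num
      omega
    have hkey : (3 * (m * p ^ (k + 1)) + 1) * p ≤ (6 * p * t) ^ m.totient := by
      have h1 := le_totient_sq m
      have h2 := six_pow _ hφ2
      have h3 : (p * t) ^ 2 ≤ (p * t) ^ m.totient :=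
        Nat.pow_le_pow_right (Nat.mul_pos hp.pos ht1) hφ2
      have h4 : 4 * m ≤ 6 ^ m.totient := by omega
      have h5 : 1 ≤ p * t := Nat.mul_pos hp.pos ht1
      have h6 : p ≤ p * t := Nat.le_mul_of_pos_right p ht1
      rw [hP, mul_assoc 6 p t, mul_pow]
      calc (3 * (m * (p * t)) + 1) * p ≤ (4 * (m * (p * t))) * p := by
            apply Nat.mul_le_mul_right
            have : 1 ≤ m * (p * t) := Nat.mul_pos hm h5
            omega
        _ ≤ (4 * (m * (p * t))) * (p * t) := Nat.mul_le_mul_left _ h6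
        _ = (4 * m) * (p * t) ^ 2 := by ring
        _ ≤ _ := Nat.mul_le_mul h4 h3
    have h1 : (((3 * (m * p ^ (k + 1)) + 1) * p : ℕ) : ℤ) ≤ E (m * p) x := by
      refine le_trans ?_ hmain
      exact_mod_cast hkey
    constructor
    · refine le_trans ?_ h1
      push_cast
      have : (0 : ℤ) ≤ (m : ℤ) * (p : ℤ) ^ (k + 1) := by positivity
      nlinarith
    · intro _
      push_cast at h1 ⊢
      exact h1

end Cfsg.Agent.Num.ZsigPart
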