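import Cfsg.Agent.Num.ZsigPart2

set_option autoImplicit false

/-!
# The primitive part of `q ^ n - 1`, small primes (helper35)
-/

namespace Cfsg.Agent.Num.ZsigPart

open Polynomial Cfsg.Agent.S2904

theorem E_one (y : ℕ) : E 1 y = (y : ℤ) - 1 := by simp [E]

theorem E_two (y : ℕ) : E 2 y = (y : ℤ) + 1 := by simp [E]

theorem E_three (y : ℕ) : E 3 y = (y : ℤ) ^ 2 + y + 1 := by
  have : cyclotomic 3 ℤ = X ^ 2 + X + 1 := cyclotomic_three ℤ
  simp [E, this]

theorem E_five (y : ℕ) : E 5 y = (y : ℤ) ^ 4 + y ^ 3 + y ^ 2 + y + 1 := by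
  have : Fact (Nat.Prime 5) := ⟨Nat.prime_five⟩
  have h := cyclotomic_prime ℤ 5
  simp only [E, h, Finset.sum_range_succ, Finset.sum_range_zero]
  simp
  ring

theorem E_four (y : ℕ) : E 4 y = (y : ℤ) ^ 2 + 1 := by
  have h := E_mul_dvd Nat.prime_two (dvd_refl 2) y
  rw [show 2 * 2 = 4 from rfl, E_two] at h
  rw [h]; push_cast; ring

theorem E_six (y : ℕ) (hy : 1 < y) : E 6 y = (y : ℤ) ^ 2 - y + 1 := by
  have h := E_mul_ndvd (p := 3) (n := 2) Nat.prime_three (by norm_num) y
  rw [show 2 * 3 = 6 from rfl, E_two, E_two] at h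
  push_cast at h
  have hy' : (0 : ℤ) < (y : ℤ) + 1 := by positivity
  have e : ((y : ℤ) ^ 2 - y + 1) * ((y : ℤ) + 1) = (y : ℤ) ^ 3 + 1 := by ring
  rw [← e] at h
  exact mul_right_cancel₀ hy'.ne' h

theorem E_ten (y : ℕ) (hy : 1 < y) : E 10 y = (y : ℤ) ^ 4 - y ^ 3 + y ^ 2 - y + 1 := by
  have h := E_mul_ndvd (p := 5) (n := 2) Nat.prime_five (by norm_num) y
  rw [show 2 * 5 = 10 from rfl, E_two, E_two] at h
  push_cast at h
  have hy' : (0 : ℤ) < (y : ℤ) + 1 := by positivity
  have e : ((y : ℤ) ^ 4 - y ^ 3 + y ^ 2 - y + 1) * ((y : ℤ) + 1) = (y : ℤ) ^ 5 + 1 := by ring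
  rw [← e] at h
  exact mul_right_cancel₀ hy'.ne' h

theorem three_mul_succ_le (t : ℕ) : 3 * t + 1 ≤ 4 ^ t := by
  induction t with
  | zero => norm_num
  | succ n ih => rw [pow_succ]; omega

/-- powers of `5` -/
theorem case5 {q k m : ℕ} (hq : 2 ≤ q) (hm : 0 < m) (hpm : ¬ 5 ∣ m)
    (hex : ¬ (q = 2 ∧ 5 ^ (k + 1) * m = 10)) (hex2 : ¬ (q = 2 ∧ 5 ^ (k + 1) * m = 20)) :
    (3 * ((5 ^ (k + 1) * m : ℕ) : ℤ) + 1 ≤ E (5 ^ (k + 1) * m) q) ∧
      (orderOf (q : ZMod 5) = m → (3 * ((5 ^ (k + 1) * m : ℕ) : ℤ) + 1) * (5 : ℕ) ≤ E (5 ^ (k + 1) * m) q) := by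
  have hp : (5 : ℕ).Prime := Nat.prime_five
  rw [mul_comm (5 ^ (k + 1)) m] at hex hex2 ⊢
  rw [E_pow hp k q]
  set t := 5 ^ k with ht
  have hk : k = 0 ∨ 5 ≤ t := by
    rcases Nat.eq_zero_or_pos k with h | h
    · exact Or.inl h
    · right
      calc 5 = 5 ^ 1 := rfl
        _ ≤ 5 ^ k := Nat.pow_le_pow_right (by norm_num) h
  set x := q ^ t with hx
  have ht1 : 1 ≤ t := Nat.one_le_pow _ _ hp.pos
  have htx : t + 1 ≤ x := succ_le_pow hq
  have hx2 : 2 ≤ x := by omega
  have hP : 5 ^ (k + 1) = 5 * t := by rw [pow_succ, mul_comm]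
  rw [hP] at hex hex2 ⊢
  have ht1' : (1 : ℤ) ≤ t := by exact_mod_cast ht1
  have htx' : (t : ℤ) + 1 ≤ x := by exact_mod_cast htx
  have hx2' : (2 : ℤ) ≤ x := by exact_mod_cast hx2
  have hxq : q ≤ x := by
    have := Nat.pow_le_pow_right (by omega : 0 < q) ht1
    rwa [pow_one] at this
  have hx32 : 5 ≤ t → 32 ≤ x := by
    intro h
    calc 32 = 2 ^ 5 := by norm_num
      _ ≤ q ^ 5 := Nat.pow_le_pow_left hq 5
      _ ≤ x := Nat.pow_le_pow_right (by omega) h
  have h4t : 4 ≤ q → 3 * t + 1 ≤ x := by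
    intro h
    calc 3 * t + 1 ≤ 4 ^ t := three_mul_succ_le t
      _ ≤ q ^ t := Nat.pow_le_pow_left h t
  have hB : ((10 * t : ℕ) : ℤ) * ((x : ℤ) + 1) ≤ (x : ℤ) ^ 5 - 1 := by
    have h1 : (10 : ℤ) * ((x : ℤ) ^ 2 - 1) ≤ (x : ℤ) ^ 5 - 1 := by
      rcases Nat.lt_or_ge x 3 with h | h
      · have : x = 2 := by omega
        rw [this]; norm_num
      · have hx3 : (3 : ℤ) ≤ x := by exact_mod_cast h
        have h5 : (3 : ℤ) ^ 3 ≤ (x : ℤ) ^ 3 := pow_le_pow_left₀ (by norm_num) hx3 3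
        have e : (x : ℤ) ^ 5 = (x : ℤ) ^ 3 * (x : ℤ) ^ 2 := by ring
        rw [e]
        have : (0 : ℤ) ≤ (x : ℤ) ^ 2 := by positivity
        nlinarith
    refine le_trans ?_ h1
    push_cast
    nlinarith
  have hmain := bound' hp hm hpm (by omega : 1 < x) hB
  by_cases hφ : 4 ≤ m.totient
  · have h1 := le_totient_sq m
    have h2 := ten_pow _ hφ
    have hkey : (3 * (m * (5 * t)) + 1) * 5 ≤ (10 * t) ^ m.totient := by
      rw [mul_pow]
      have h3 : t ≤ t ^ m.totient := by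
        calc t = t ^ 1 := (pow_one t).symm
          _ ≤ t ^ m.totient := Nat.pow_le_pow_right ht1 (by omega)
      calc (3 * (m * (5 * t)) + 1) * 5 ≤ (16 * (m * t)) * 5 := by
            apply Nat.mul_le_mul_right
            have : 1 ≤ m * t := Nat.mul_pos hm ht1
            nlinarith
        _ = (80 * m) * t := by ring
        _ ≤ 10 ^ m.totient * t ^ m.totient := Nat.mul_le_mul (by omega) h3
    have h3 : (((3 * (m * (5 * t)) + 1) * 5 : ℕ) : ℤ) ≤ E (m * 5) x := by
      refine le_trans ?_ hmain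
      exact_mod_cast hkey
    push_cast at h3 ⊢
    constructor
    · have : (0 : ℤ) ≤ (m : ℤ) * (5 * t) := by positivity
      linarith
    · intro _; linarith
  · have hm18 : m ≤ 18 := by
      have h1 := le_totient_sq m
      have h2 : m.totient ^ 2 ≤ 3 ^ 2 := Nat.pow_le_pow_left (by omega) 2
      omega
    have hmc : m = 1 ∨ m = 2 ∨ m = 3 ∨ m = 4 ∨ m = 6 := by
      interval_cases m <;> first | omega | (exfalso; apply hφ; decide)
    have hord4 : orderOf (q : ZMod 5) = m → m ∣ 4 := by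
      intro h
      have := Fact.mk hp
      rw [← h]
      have h0 : (q : ZMod 5) ≠ 0 := by
        intro h0
        rw [h0, orderOf_eq_zero] at h
        · omega
        · intro h
          obtain ⟨k, hk, h⟩ := isOfFinOrder_iff_pow_eq_one.mp h
          rw [zero_pow hk.ne'] at h
          exact zero_ne_one h
      exact ZMod.orderOf_dvd_card_sub_one h0
    rcases hmc with rfl | rfl | rfl | rfl | rfl
    · rw [one_mul, E_five]
      push_cast
      constructor
      · have h1 : ((t : ℤ) + 1) ^ 4 ≤ (x : ℤ) ^ 4 := pow_le_pow_left₀ (by linarith) htx' 4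
        have h2 : (15 : ℤ) * t + 1 ≤ ((t : ℤ) + 1) ^ 4 := by nlinarith [mul_nonneg (mul_nonneg (by linarith : (0:ℤ) ≤ t) (by linarith : (0:ℤ) ≤ t)) (by linarith : (0:ℤ) ≤ t - 1)]
        have h3 : (0 : ℤ) ≤ (x : ℤ) ^ 3 + x ^ 2 + x := by positivity
        linarith
      · intro hord
        have h1 := dvd_of_order (by omega) hord
        rw [pow_one] at h1
        have h6 : 6 ≤ q := by
          have := Nat.le_of_dvd (by omega) h1
          omega
        have hx6 : (6 : ℤ) ≤ x := by exact_mod_cast h6.trans hxq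
        have h2 : (6 : ℤ) ^ 3 ≤ (x : ℤ) ^ 3 := pow_le_pow_left₀ (by norm_num) hx6 3
        have e : (x : ℤ) ^ 4 = (x : ℤ) ^ 3 * x := by ring
        have h3 : (0 : ℤ) ≤ (x : ℤ) ^ 3 + x ^ 2 + x := by positivity
        nlinarith
    · rw [show 2 * 5 = 10 from rfl, E_ten x (by omega)]
      push_cast
      have e : (x : ℤ) ^ 4 - x ^ 3 + x ^ 2 - x + 1 = x ^ 3 * (x - 1) + x * (x - 1) + 1 := by ring
      rw [e]
      constructor
      · have hx3 : 3 ≤ x := by
          by_contra hcon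
          have hx2 : x = 2 := by omega
          have ht5 : ¬ 5 ≤ t := fun h => by have := hx32 h; omega
          have hk0 : k = 0 := by rcases hk with h | h; exacts [h, absurd h ht5]
          have ht0 : t = 1 := by rw [ht, hk0, pow_zero]
          apply hex
          rw [ht0]
          refine ⟨?_, by norm_num⟩
          rw [hx, ht0, pow_one] at hx2
          exact hx2
        have hx3' : (3 : ℤ) ≤ x := by exact_mod_cast hx3
        have h2 : (3 : ℤ) ^ 3 ≤ (x : ℤ) ^ 3 := pow_le_pow_left₀ (by norm_num) hx3' 3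
        nlinarith
      · intro hord
        have h1 := dvd_of_order (by omega) hord
        have h4 : 4 ≤ q := by
          by_contra hcon
          have : q = 2 ∨ q = 3 := by omega
          rcases this with rfl | rfl
          · norm_num at h1
          · norm_num at h1
        have h5 : ((3 * t + 1 : ℕ) : ℤ) ≤ x := by exact_mod_cast h4t h4
        push_cast at h5
        have hx4' : (4 : ℤ) ≤ x := by exact_mod_cast h4.trans hxq
        have h2 : (4 : ℤ) ^ 3 ≤ (x : ℤ) ^ 3 := pow_le_pow_left₀ (by norm_num) hx4' 3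
        nlinarith
    · rw [show (3 : ℕ).totient = 2 by decide] at hmain
      push_cast at hmain ⊢
      refine ⟨by nlinarith, fun hord => ?_⟩
      have := hord4 hord
      norm_num at this
    · rw [show (4 : ℕ).totient = 2 by decide] at hmain
      have hx3 : 3 ≤ x := by
        by_contra hcon
        have hx2 : x = 2 := by omega
        have ht5 : ¬ 5 ≤ t := fun h => by have := hx32 h; omega
        have hk0 : k = 0 := by rcases hk with h | h; exacts [h, absurd h ht5]
        have ht0 : t = 1 := by rw [ht, hk0, pow_zero]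
        apply hex2
        rw [ht0]
        refine ⟨?_, by norm_num⟩
        rw [hx, ht0, pow_one] at hx2
        exact hx2
      have hx3' : (3 : ℤ) ≤ x := by exact_mod_cast hx3
      have hB2 : ((27 * t : ℕ) : ℤ) * ((x : ℤ) + 1) ≤ (x : ℤ) ^ 5 - 1 := by
        have h5 : (3 : ℤ) ^ 3 ≤ (x : ℤ) ^ 3 := pow_le_pow_left₀ (by norm_num) hx3' 3
        have e : (x : ℤ) ^ 5 = (x : ℤ) ^ 3 * (x : ℤ) ^ 2 := by ring
        have h1 : (27 : ℤ) * ((x : ℤ) ^ 2 - 1) ≤ (x : ℤ) ^ 5 - 1 := by
          rw [e]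
          have : (0 : ℤ) ≤ (x : ℤ) ^ 2 := by positivity
          nlinarith
        refine le_trans ?_ h1
        push_cast
        nlinarith
      have h2 := bound' hp hm hpm (by omega : 1 < x) hB2
      rw [show (4 : ℕ).totient = 2 by decide] at h2
      push_cast at h2 ⊢
      have h3 : ((3 * (4 * (5 * (t : ℤ))) + 1) * 5) ≤ (27 * t) ^ 2 := by nlinarith
      exact ⟨by linarith, fun _ => by linarith⟩
    · rw [show (6 : ℕ).totient = 2 by decide] at hmain
      push_cast at hmain ⊢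
      refine ⟨by nlinarith, fun hord => ?_⟩
      have := hord4 hord
      norm_num at this

end Cfsg.Agent.Num.ZsigPart
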