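import Cfsg.Agent.Num.ZsigPart3

set_option autoImplicit false

/-!
# The primitive part of `q ^ n - 1`, the primes 2 and 3, main theorem (helper35)
-/

namespace Cfsg.Agent.Num.ZsigPart

open Polynomial Cfsg.Agent.S2904

theorem seven_aux (t : ℕ) (ht : 3 ≤ t) : 7 * t + 3 ≤ 3 * 2 ^ t := by
  induction t, ht using Nat.le_induction with
  | base => norm_num
  | succ n hn ih => rw [pow_succ]; omega

theorem eight_aux (t : ℕ) (ht : 3 ≤ t) : 8 * t + 1 ≤ 3 ^ t := by
  induction t, ht using Nat.le_induction with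
  | base => norm_num
  | succ n hn ih => rw [pow_succ]; omega

theorem big_aux (s : ℕ) (hs : 8 ≤ s) : 12 * s + 1 ≤ 2 ^ s := by
  induction s, hs using Nat.le_induction with
  | base => norm_num
  | succ n hn ih => rw [pow_succ]; omega

theorem pow3_cases (k : ℕ) : k = 0 ∨ k = 1 ∨ 9 ≤ 3 ^ k := by
  rcases Nat.lt_or_ge k 2 with h | h
  · omega
  · right; right
    calc 9 = 3 ^ 2 := by norm_num
      _ ≤ 3 ^ k := Nat.pow_le_pow_right (by norm_num) h

/-- `n = 3 ^ (k+1)` -/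
theorem case3a {q k : ℕ} (hq : 2 ≤ q) (hex : ¬ (q = 2 ∧ 3 ^ (k + 1) = 3)) (hex2 : ¬ (q = 4 ∧ 3 ^ (k + 1) = 3)) :
    (3 * ((3 ^ (k + 1) * 1 : ℕ) : ℤ) + 1 ≤ E (3 ^ (k + 1) * 1) q) ∧
      (orderOf (q : ZMod 3) = 1 → (3 * ((3 ^ (k + 1) * 1 : ℕ) : ℤ) + 1) * (3 : ℕ) ≤ E (3 ^ (k + 1) * 1) q) := by
  rw [mul_comm (3 ^ (k + 1)) 1, E_pow Nat.prime_three k q, one_mul, one_mul, E_three]
  have hP : 3 ^ (k + 1) = 3 * 3 ^ k := by rw [pow_succ, mul_comm]
  rw [hP] at hex hex2 ⊢
  have htq : ∀ x : ℕ, x = q ^ 3 ^ k → 3 ^ k + 1 ≤ x := fun x hx => hx ▸ succ_le_pow hq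
  have hdiv : orderOf (q : ZMod 3) = 1 → 4 ≤ q := by
    intro hord
    have h1 := dvd_of_order (by omega) hord
    rw [pow_one] at h1
    have := Nat.le_of_dvd (by omega) h1
    omega
  rcases Nat.eq_zero_or_pos k with rfl | hk
  · norm_num at hex hex2 ⊢
    have hq3 : (3 : ℤ) ≤ q := by have : 3 ≤ q := by omega
                                 exact_mod_cast this
    refine ⟨by nlinarith, fun hord => ?_⟩
    have h1 := dvd_of_order (q := q) (p := 3) (m := 1) (by omega) (by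
      rw [hord]; exact orderOf_one)
    rw [pow_one] at h1
    have h4 := Nat.le_of_dvd (by omega) h1
    have : 5 ≤ q := by omega
    have hq5 : (5 : ℤ) ≤ q := by exact_mod_cast this
    nlinarith
  · have ht3 : 3 ≤ 3 ^ k := by
      calc 3 = 3 ^ 1 := by norm_num
        _ ≤ 3 ^ k := Nat.pow_le_pow_right (by norm_num) hk
    generalize hx : q ^ 3 ^ k = x
    generalize ht : 3 ^ k = t at *
    have htx := htq x hx.symm
    have ht3' : (3 : ℤ) ≤ t := by exact_mod_cast ht3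
    have htx' : (t : ℤ) + 1 ≤ x := by exact_mod_cast htx
    have hx8 : 8 ≤ x := by
      rw [← hx]
      calc 8 = 2 ^ 3 := by norm_num
        _ ≤ q ^ 3 := Nat.pow_le_pow_left hq 3
        _ ≤ q ^ t := Nat.pow_le_pow_right (by omega) ht3
    have hx8' : (8 : ℤ) ≤ x := by exact_mod_cast hx8
    push_cast
    refine ⟨by nlinarith, fun hord => ?_⟩
    have h4 := hdiv hord
    have hx64 : 64 ≤ x := by
      rw [← hx]
      calc 64 = 4 ^ 3 := by norm_num
        _ ≤ q ^ 3 := Nat.pow_le_pow_left h4 3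
        _ ≤ q ^ t := Nat.pow_le_pow_right (by omega) ht3
    have hx64' : (64 : ℤ) ≤ x := by exact_mod_cast hx64
    nlinarith

/-- `n = 3 ^ (k+1) 2 ^ (a + 1)` -/
theorem case3b {q k a : ℕ} (hq : 2 ≤ q) (hex : ¬ (q = 2 ∧ 3 ^ (k + 1) * 2 ^ (a + 1) = 6))
    (hex2 : ¬ (q = 3 ∧ 3 ^ (k + 1) * 2 ^ (a + 1) = 6)) (hex3 : ¬ (q = 4 ∧ 3 ^ (k + 1) * 2 ^ (a + 1) = 6))
    (hex4 : ¬ (q = 5 ∧ 3 ^ (k + 1) * 2 ^ (a + 1) = 6)) (hex5 : ¬ (q = 2 ∧ 3 ^ (k + 1) * 2 ^ (a + 1) = 12))
    (hex6 : ¬ (q = 2 ∧ 3 ^ (k + 1) * 2 ^ (a + 1) = 18)) :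
    (3 * ((3 ^ (k + 1) * 2 ^ (a + 1) : ℕ) : ℤ) + 1 ≤ E (3 ^ (k + 1) * 2 ^ (a + 1)) q) ∧
      (orderOf (q : ZMod 3) = 2 ^ (a + 1) →
        (3 * ((3 ^ (k + 1) * 2 ^ (a + 1) : ℕ) : ℤ) + 1) * (3 : ℕ) ≤ E (3 ^ (k + 1) * 2 ^ (a + 1)) q) := by
  have h1 : E (3 ^ (k + 1) * 2 ^ (a + 1)) q = E 6 (q ^ (3 ^ k * 2 ^ a)) := by
    rw [mul_comm (3 ^ (k + 1)), E_pow Nat.prime_three k q, mul_comm (2 ^ (a + 1)) 3, E_pow Nat.prime_two a,
      ← pow_mul]
  have hn : 3 ^ (k + 1) * 2 ^ (a + 1) = 6 * (3 ^ k * 2 ^ a) := by ring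
  rw [h1, hn] 
  rw [hn] at hex hex2 hex3 hex4 hex5 hex6
  have hord0 : orderOf (q : ZMod 3) = 2 ^ (a + 1) → a = 0 ∧ 3 ∣ q ^ 2 - 1 := by
    intro hord
    have h3 := dvd_of_order (by omega) hord
    have : Fact (Nat.Prime 3) := ⟨Nat.prime_three⟩
    have h0 : (q : ZMod 3) ≠ 0 := by
      intro h0
      rw [h0, orderOf_eq_zero] at hord
      · have := Nat.pos_of_ne_zero (pow_ne_zero (a + 1) (two_ne_zero (α := ℕ)))
        omega
      · intro h
        obtain ⟨k, hk, h⟩ := isOfFinOrder_iff_pow_eq_one.mp h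
        rw [zero_pow hk.ne'] at h
        exact zero_ne_one h
    have h2 : orderOf (q : ZMod 3) ∣ 2 := ZMod.orderOf_dvd_card_sub_one h0
    rw [hord] at h2
    have h4 := Nat.le_of_dvd (by norm_num) h2
    have ha : a = 0 := by
      by_contra ha
      have : 2 ^ 2 ≤ 2 ^ (a + 1) := Nat.pow_le_pow_right (by norm_num) (by omega)
      omega
    subst ha
    exact ⟨rfl, h3⟩
  -- `s = 3 ^ k 2 ^ a`
  rcases Nat.lt_or_ge (3 ^ k * 2 ^ a) 3 with hs | hs
  · have hk : k = 0 := by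
      by_contra hk
      have h3 : 3 ^ 1 ≤ 3 ^ k := Nat.pow_le_pow_right (by norm_num) (by omega)
      have h4 : 1 ≤ 2 ^ a := Nat.one_le_two_pow
      nlinarith
    subst hk
    have ha : a = 0 ∨ a = 1 := by
      by_contra ha
      have : 2 ^ 2 ≤ 2 ^ a := Nat.pow_le_pow_right (by norm_num) (by omega)
      omega
    rcases ha with rfl | rfl
    · norm_num at hex hex2 hex3 hex4 hex5 hex6 ⊢
      rw [E_six q (by omega)]
      have h5 : 6 ≤ q := by omega
      have h5' : (6 : ℤ) ≤ q := by exact_mod_cast h5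
      refine ⟨by nlinarith, fun hord => ?_⟩
      have h6 := (hord0 (by rw [hord]; norm_num)).2
      have h7 : 8 ≤ q := by
        by_contra hcon
        have : q = 6 ∨ q = 7 := by omega
        rcases this with rfl | rfl
        · norm_num at h6
        · -- the order of 7 mod 3 is 1
          have : ((7 : ℕ) : ZMod 3) = 1 := by decide
          rw [this, orderOf_one] at hord
          omega
      have h7' : (8 : ℤ) ≤ q := by exact_mod_cast h7
      nlinarith
    · norm_num at hex hex2 hex3 hex4 hex5 hex6 ⊢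
      have h5 : 3 ≤ q := by omega
      have h9 : 9 ≤ q ^ 2 := by nlinarith
      rw [E_six (q ^ 2) (by omega)]
      have h9' : (9 : ℤ) ≤ (q : ℤ) ^ 2 := by exact_mod_cast h9
      push_cast
      refine ⟨by nlinarith, fun hord => ?_⟩
      have := (hord0 (by rw [hord]; norm_num)).1
      omega
  · set s := 3 ^ k * 2 ^ a with hsdef
    set x := q ^ s with hx
    have hx2 : 2 ^ s ≤ x := Nat.pow_le_pow_left hq s
    have h7 := seven_aux s hs
    have hx8 : 8 ≤ x := by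
      have : 2 ^ 3 ≤ 2 ^ s := Nat.pow_le_pow_right (by norm_num) hs
      omega
    rw [E_six x (by omega)]
    have hx8' : (8 : ℤ) ≤ x := by exact_mod_cast hx8
    have h7' : (7 : ℤ) * s + 3 ≤ 3 * x := by
      have : 7 * s + 3 ≤ 3 * x := by omega
      exact_mod_cast this
    push_cast
    refine ⟨by nlinarith, fun hord => ?_⟩
    have ha := (hord0 hord).1
    subst ha
    rw [pow_zero, mul_one] at hsdef
    rcases Nat.lt_or_ge q 3 with hq3 | hq3
    · obtain rfl : q = 2 := by omega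
      have hs9 : 9 ≤ s := by
        rcases pow3_cases k with h | h | h
        · rw [h, pow_zero] at hsdef; omega
        · exfalso; apply hex6; refine ⟨rfl, ?_⟩; rw [hsdef, h]; norm_num
        · omega
      have h5 : 12 * s + 1 ≤ 2 ^ s := big_aux s (by omega)
      have h512 : 2 ^ 9 ≤ 2 ^ s := Nat.pow_le_pow_right (by norm_num) hs9
      have h5' : (12 : ℤ) * s + 1 ≤ x := by exact_mod_cast h5
      have h512' : (512 : ℤ) ≤ x := by exact_mod_cast h512
      nlinarith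
    · have h27 : 27 ≤ x := by
        calc 27 = 3 ^ 3 := by norm_num
          _ ≤ q ^ 3 := Nat.pow_le_pow_left hq3 3
          _ ≤ q ^ s := Nat.pow_le_pow_right (by omega) hs
      have h8 : 8 * s + 1 ≤ x := (eight_aux s hs).trans (Nat.pow_le_pow_left hq3 s)
      have h27' : (27 : ℤ) ≤ x := by exact_mod_cast h27
      have h8' : (8 : ℤ) * s + 1 ≤ x := by exact_mod_cast h8
      nlinarith

/-- `n = 2 ^ (k + 1)`, `k ≥ 1` -/
theorem case2 {q k : ℕ} (hq : 2 ≤ q) (hk : 1 ≤ k) (hex : ¬ (q = 2 ∧ 2 ^ (k + 1) = 4))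
    (hex2 : ¬ (q = 3 ∧ 2 ^ (k + 1) = 4)) (hex3 : ¬ (q = 2 ∧ 2 ^ (k + 1) = 8)) :
    (3 * ((2 ^ (k + 1) * 1 : ℕ) : ℤ) + 1 ≤ E (2 ^ (k + 1) * 1) q) ∧
      (orderOf (q : ZMod 2) = 1 → (3 * ((2 ^ (k + 1) * 1 : ℕ) : ℤ) + 1) * (2 : ℕ) ≤ E (2 ^ (k + 1) * 1) q) := by
  rw [mul_comm (2 ^ (k + 1)) 1, E_pow Nat.prime_two k q, one_mul, one_mul, E_two]
  have hodd : orderOf (q : ZMod 2) = 1 → 3 ≤ q ∧ 2 ∣ q - 1 := by
    intro hord
    have h1 := dvd_of_order (by omega) hord
    rw [pow_one] at h1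
    exact ⟨by omega, h1⟩
  rcases Nat.lt_or_ge k 3 with hk3 | hk3
  · have hk' : k = 1 ∨ k = 2 := by omega
    rcases hk' with rfl | rfl
    · norm_num at hex hex2 hex3 ⊢
      have h4 : 4 ≤ q := by omega
      have h4' : (4 : ℤ) ≤ q := by exact_mod_cast h4
      refine ⟨by nlinarith, fun hord => ?_⟩
      have h5 : 5 ≤ q := by
        have := hodd (by rw [hord]; exact orderOf_one)
        omega
      have h5' : (5 : ℤ) ≤ q := by exact_mod_cast h5
      nlinarith
    · norm_num at hex hex2 hex3 ⊢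
      have h3 : 3 ≤ q := by omega
      have h3' : (3 : ℤ) ≤ q := by exact_mod_cast h3
      have : (3 : ℤ) ^ 4 ≤ (q : ℤ) ^ 4 := pow_le_pow_left₀ (by norm_num) h3' 4
      exact ⟨by linarith, fun _ => by linarith⟩
  · have hs8 : 8 ≤ 2 ^ k := by
      calc 8 = 2 ^ 3 := by norm_num
        _ ≤ 2 ^ k := Nat.pow_le_pow_right (by norm_num) hk3
    have h1 := big_aux _ hs8
    have h2 : 2 ^ 2 ^ k ≤ q ^ 2 ^ k := Nat.pow_le_pow_left hq _
    have h3 : 12 * 2 ^ k + 1 ≤ q ^ 2 ^ k := h1.trans h2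
    have h3' : (12 : ℤ) * 2 ^ k + 1 ≤ (q : ℤ) ^ 2 ^ k := by exact_mod_cast h3
    have h4 : (0 : ℤ) < 2 ^ k := by positivity
    push_cast
    rw [pow_succ]
    exact ⟨by linarith, fun _ => by linarith⟩

/-- **The primitive part of `q ^ n - 1` is at least `3 n + 1`**, except for thirteen pairs. -/
theorem good {q n : ℕ} (hq : 2 ≤ q) (hn : 3 ≤ n)
    (hex : (q, n) ∉ [(2, 6), (2, 4), (2, 10), (2, 12), (2, 18), (3, 4), (3, 6), (5, 6), (2, 3), (2, 8), (2, 20),
      (4, 3), (4, 6)]) : Good q n := by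
  simp only [List.mem_cons, Prod.mk.injEq, List.not_mem_nil, or_false, not_or] at hex
  obtain ⟨e1, e2, e3, e4, e5, e6, e7, e8, e9, e10, e11, e12, e13⟩ := hex
  -- the largest prime divisor
  obtain ⟨p, hpmem, hmax'⟩ := Finset.exists_max_image n.primeFactors id
    (Nat.nonempty_primeFactors.2 (by omega))
  have hp : p.Prime := Nat.prime_of_mem_primeFactors hpmem
  have hpn : p ∣ n := Nat.dvd_of_mem_primeFactors hpmem
  have hmax : ∀ s : ℕ, s.Prime → s ∣ n → s ≤ p := fun s hs hsn =>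
    hmax' s (Nat.mem_primeFactors.2 ⟨hs, hsn, by omega⟩)
  obtain ⟨k, m, hpm, hnm⟩ := Nat.exists_eq_pow_mul_and_not_dvd (show n ≠ 0 by omega) p hp.one_lt.ne'
  have hk : k ≠ 0 := by
    rintro rfl
    rw [pow_zero, one_mul] at hnm
    exact hpm (hnm ▸ hpn)
  obtain ⟨k, rfl⟩ := Nat.exists_eq_succ_of_ne_zero hk
  rw [Nat.succ_eq_add_one] at hnm
  have hm : 0 < m := Nat.pos_of_ne_zero (by rintro rfl; simp at hpm)
  have hlt : ∀ s : ℕ, s.Prime → s ∣ m → s < p := by
    intro s hs hsm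
    refine lt_of_le_of_ne (hmax s hs (hnm ▸ hsm.mul_left _)) ?_
    rintro rfl
    exact hpm hsm
  have key : (3 * ((n : ℕ) : ℤ) + 1 ≤ E n q) ∧ (orderOf (q : ZMod p) = m → (3 * (n : ℤ) + 1) * p ≤ E n q) := by
    rcases Nat.lt_or_ge p 7 with hp7 | hp7
    · have hp' : p = 2 ∨ p = 3 ∨ p = 5 := by
        interval_cases p
        · exact absurd hp (by norm_num)
        · exact absurd hp (by norm_num)
        · omega
        · omega
        · exact absurd hp (by norm_num)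
        · omega
        · exact absurd hp (by norm_num)
      rcases hp' with rfl | rfl | rfl
      · -- p = 2
        have hm1 : m = 1 := by
          by_contra hne
          obtain ⟨s, hs, hsm⟩ := Nat.exists_prime_and_dvd hne
          have := hlt s hs hsm
          have := hs.two_le
          omega
        subst hm1
        have hk1 : 1 ≤ k := by
          rcases Nat.eq_zero_or_pos k with rfl | h
          · norm_num at hnm; omega
          · exact h
        have := case2 hq hk1 (fun h => e2 ⟨h.1, by rw [hnm, h.2]⟩) (fun h => e6 ⟨h.1, by rw [hnm, h.2]⟩)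
          (fun h => e10 ⟨h.1, by rw [hnm, h.2]⟩)
        rw [← hnm] at this
        exact this
      · -- p = 3
        have hm2 : ∃ a, m = 2 ^ a := by
          refine ⟨m.primeFactorsList.length, ?_⟩
          refine Nat.eq_prime_pow_of_unique_prime_dvd hm.ne' fun {s} hs hsm => ?_
          have := hlt s hs hsm
          have := hs.two_le
          omega
        obtain ⟨a, rfl⟩ := hm2
        rcases Nat.eq_zero_or_pos a with rfl | ha
        · rw [pow_zero] at hnm ⊢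
          have := case3a (k := k) hq (fun h => e9 ⟨h.1, by rw [hnm, h.2, mul_one]⟩)
            (fun h => e12 ⟨h.1, by rw [hnm, h.2, mul_one]⟩)
          rw [← hnm] at this
          exact this
        · obtain ⟨a, rfl⟩ := Nat.exists_eq_succ_of_ne_zero ha.ne'
          rw [Nat.succ_eq_add_one] at hnm ⊢
          have := case3b (k := k) (a := a) hq (fun h => e1 ⟨h.1, by rw [hnm, h.2]⟩)
            (fun h => e7 ⟨h.1, by rw [hnm, h.2]⟩) (fun h => e13 ⟨h.1, by rw [hnm, h.2]⟩)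
            (fun h => e8 ⟨h.1, by rw [hnm, h.2]⟩) (fun h => e4 ⟨h.1, by rw [hnm, h.2]⟩)
            (fun h => e5 ⟨h.1, by rw [hnm, h.2]⟩)
          rw [← hnm] at this
          exact this
      · -- p = 5
        have := case5 (k := k) hq hm hpm (fun h => e3 ⟨h.1, by rw [hnm, h.2]⟩) (fun h => e11 ⟨h.1, by rw [hnm, h.2]⟩)
        rw [← hnm] at this
        exact this
    · have := case7 (k := k) hq hp hp7 hm hpm
      rw [← hnm] at this
      exact this
  exact good_of (by omega) (by omega) hp (Nat.succ_ne_zero k) hpm hnm hmax key.1 key.2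

end Cfsg.Agent.Num.ZsigPart
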